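import Mathlib
import Cfsg.Agent.CHAR.BrauerLin
import Cfsg.Agent.CHAR.RepEquiv

/-!
# Characters afforded by representations over a subfield; Brauer's splitting field theorem
-/

set_option autoImplicit false

namespace CL.Char

open Cfsg Module
open scoped ComplexConjugate

variable (F : Type*) [Field F] [Algebra F ℂ]

/-- `χ` is afforded by a representation over `F`. -/
def IsFChar (G : Type*) [Group G] (χ : G → ℂ) : Prop :=
  ∃ (n : ℕ) (ρ : Representation F G (Fin n → F)), (fun g => algebraMap F ℂ (ρ.character g)) = χ

variable {F} {G : Type*} [Group G]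

theorem isFChar_character {V : Type*} [AddCommGroup V] [Module F V] [FiniteDimensional F V]
    (ρ : Representation F G V) : IsFChar F G (fun g => algebraMap F ℂ (ρ.character g)) :=
  ⟨finrank F V, repTransport ρ (Module.finBasis F V).equivFun, by
    rw [← Representation.char_iso (repTransportEquiv ρ _)]⟩

/-- Extension of scalars of a matrix representation. -/
noncomputable def complexify {n : ℕ} (ρ : Representation F G (Fin n → F)) :
    Representation ℂ G (Fin n → ℂ) where
  toFun g := Matrix.toLin' ((LinearMap.toMatrix' (ρ g)).map (algebraMap F ℂ))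
  map_one' := by
    rw [map_one, LinearMap.toMatrix'_one, Matrix.map_one _ (map_zero _) (map_one _),
      Matrix.toLin'_one]
    rfl
  map_mul' g h := by
    rw [map_mul, LinearMap.toMatrix'_mul, Matrix.map_mul, Matrix.toLin'_mul]
    rfl

theorem toMatrix'_complexify {n : ℕ} (ρ : Representation F G (Fin n → F)) (g : G) :
    LinearMap.toMatrix' (complexify ρ g) = (LinearMap.toMatrix' (ρ g)).map (algebraMap F ℂ) :=
  LinearMap.toMatrix'_toLin' _

theorem character_complexify {n : ℕ} (ρ : Representation F G (Fin n → F)) (g : G) :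
    (complexify ρ).character g = algebraMap F ℂ (ρ.character g) := by
  unfold Representation.character
  rw [LinearMap.trace_eq_matrix_trace ℂ (Pi.basisFun ℂ (Fin n)),
    LinearMap.trace_eq_matrix_trace F (Pi.basisFun F (Fin n)), LinearMap.toMatrix_eq_toMatrix',
    LinearMap.toMatrix_eq_toMatrix', toMatrix'_complexify, AddMonoidHom.map_trace]

theorem IsFChar.isCharacter {χ : G → ℂ} (h : IsFChar F G χ) : IsCharacter G χ := by
  obtain ⟨n, ρ, rfl⟩ := h
  exact ⟨n, complexify ρ, funext (character_complexify ρ)⟩

theorem isFChar_zero : IsFChar F G 0 :=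
  ⟨0, Representation.trivial F G _, by funext g; simp [character_trivial]⟩

theorem IsFChar.add {χ ψ : G → ℂ} (h : IsFChar F G χ) (h' : IsFChar F G ψ) :
    IsFChar F G (χ + ψ) := by
  obtain ⟨n, ρ, rfl⟩ := h
  obtain ⟨m, σ, rfl⟩ := h'
  convert isFChar_character (ρ.prod σ) using 1
  funext g
  simp [character_prod]

theorem IsFChar.nsmul {χ : G → ℂ} (h : IsFChar F G χ) (n : ℕ) : IsFChar F G (n • χ) := by
  induction n with
  | zero => simpa using isFChar_zero
  | succ n ih => rw [succ_nsmul]; exact ih.add h

theorem IsFChar.ind [Fintype G] {H : Subgroup G} {θ : H → ℂ} (h : IsFChar F H θ) :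
    IsFChar F G (indFun H θ) := by
  classical
  have hc := h.isCharacter.isClassFunction
  obtain ⟨n, ρ, rfl⟩ := h
  convert isFChar_character (indRep H ρ) using 1
  funext g
  rw [indFun_eq_sum_quotient H hc, indRep_character, map_sum]
  refine Finset.sum_congr rfl fun a _ => ?_
  rw [extendByZero_apply]
  split_ifs <;> simp

theorem isFChar_hom (lam : G →* ℂˣ) (h : ∀ g, (lam g : ℂ) ∈ (algebraMap F ℂ).range) :
    IsFChar F G (fun g => (lam g : ℂ)) := by
  choose f hf using h
  have hinj := (algebraMap F ℂ).injective
  let ρ : Representation F G F :=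
    { toFun := fun g => f g • LinearMap.id
      map_one' := by
        have : f 1 = 1 := hinj (by rw [hf]; simp)
        rw [this, one_smul]; rfl
      map_mul' := fun g h => by
        have : f (g * h) = f g * f h := hinj (by rw [map_mul, hf, hf, hf]; simp)
        rw [this]; ext; simp [mul_comm] }
  convert isFChar_character ρ using 1
  funext g
  rw [← hf]
  congr 1
  change _ = LinearMap.trace F F (f g • LinearMap.id)
  simp

theorem classInner_fchar [Fintype G] {V W : Type*} [AddCommGroup V] [Module F V]
    [FiniteDimensional F V] [AddCommGroup W] [Module F W] [FiniteDimensional F W]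
    (ρ : Representation F G V) (σ : Representation F G W) :
    classInner (fun g => algebraMap F ℂ (σ.character g)) (fun g => algebraMap F ℂ (ρ.character g)) =
      finrank F (ρ.IntertwiningMap σ) := by
  have : CharZero F := (algebraMap F ℂ).charZero
  have : Invertible (Nat.card G : F) := invertibleOfNonzero (by exact_mod_cast Nat.card_pos.ne')
  have h := congrArg (algebraMap F ℂ)
    (Representation.card_inv_mul_sum_char_mul_char_eq_finrank ρ σ)
  rw [map_natCast] at h
  rw [← h, classInner_def]
  simp only [map_mul, map_inv₀, map_natCast, map_sum]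
  congr 1
  refine Finset.sum_congr rfl fun g _ => ?_
  rw [← (isFChar_character ρ).isCharacter.apply_inv g]

theorem IsFChar.exists_irreducible [Finite G] {χ : G → ℂ} (h : IsFChar F G χ) (h0 : χ ≠ 0) :
    ∃ (n : ℕ) (ρ : Representation F G (Fin n → F)), ρ.IsIrreducible ∧
      IsFChar F G (χ - fun g => algebraMap F ℂ (ρ.character g)) := by
  have : CharZero F := (algebraMap F ℂ).charZero
  have : NeZero (Nat.card G : F) := ⟨by exact_mod_cast Nat.card_pos.ne'⟩
  obtain ⟨n, ρ, rfl⟩ := h
  induction n using Nat.strong_induction_on with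
  | _ n ih =>
  by_cases hρ : ρ.IsIrreducible
  · exact ⟨n, ρ, hρ, by rw [sub_self]; exact isFChar_zero⟩
  have hV : Nontrivial (Fin n → F) := by
    rcases n with _ | n
    · exact absurd (by funext g; simp [Representation.character, Subsingleton.elim (ρ g) 0]) h0
    · infer_instance
  rw [isIrreducible_iff] at hρ
  push Not at hρ
  obtain ⟨U, hU, hb, ht⟩ := hρ hV
  let U₁ : Subrepresentation ρ := ⟨U, fun g v hv => hU g v hv⟩
  obtain ⟨U₂, h12⟩ := exists_isCompl U₁
  have h1 : finrank F U₁.toSubmodule < n := by simpa using Submodule.finrank_lt ht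
  have e := character_eq_add_of_isCompl h12
  obtain ⟨m, σ, hσ, h⟩ := ih _ h1
    (repTransport U₁.toRepresentation (Module.finBasis F U₁.toSubmodule).equivFun) (by
      rw [← Representation.char_iso (repTransportEquiv _ _)]
      intro h
      have := congrFun h 1
      simp only [Representation.char_one, map_natCast, Pi.zero_apply, Nat.cast_eq_zero,
        Submodule.finrank_eq_zero] at this
      exact hb this)
  rw [← Representation.char_iso (repTransportEquiv _ _)] at h
  refine ⟨m, σ, hσ, ?_⟩
  convert h.add (isFChar_character U₂.toRepresentation) using 1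
  funext g
  simp [e]
  ring

theorem IsFChar.sub_irreducible [Fintype G] {χ : G → ℂ} (h : IsFChar F G χ) {m : ℕ}
    (σ : Representation F G (Fin m → F)) (hσ : σ.IsIrreducible)
    (hne : classInner χ (fun g => algebraMap F ℂ (σ.character g)) ≠ 0) :
    IsFChar F G (χ - fun g => algebraMap F ℂ (σ.character g)) := by
  have : CharZero F := (algebraMap F ℂ).charZero
  have : NeZero (Nat.card G : F) := ⟨by exact_mod_cast Nat.card_pos.ne'⟩
  obtain ⟨n, ρ, rfl⟩ := h
  rw [classInner_fchar] at hne
  have h' : finrank F (σ.IntertwiningMap ρ) ≠ 0 := by exact_mod_cast hne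
  have : Nontrivial (σ.IntertwiningMap ρ) :=
    Module.nontrivial_of_finrank_pos (Nat.pos_of_ne_zero h')
  obtain ⟨f, hf⟩ := exists_ne (0 : σ.IntertwiningMap ρ)
  have hinj := (Representation.IsIrreducible.injective_or_eq_zero f).resolve_right hf
  obtain ⟨R, hR⟩ := exists_isCompl f.range
  have e := character_eq_add_of_isCompl hR
  have φ : σ.Equiv f.range.toRepresentation :=
    Representation.Equiv.mk (LinearEquiv.ofInjective f.toLinearMap hinj) (fun g => by
      ext v
      exact congrFun (Representation.IntertwiningMap.isIntertwining σ ρ f g _) _)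
  rw [← Representation.char_iso φ] at e
  convert isFChar_character R.toRepresentation using 1
  funext g
  simp [e]

/-- A character that is a difference of characters realisable over `F` is realisable over `F`. -/
theorem IsFChar.of_sub [Finite G] {a b : G → ℂ} (ha : IsFChar F G a) (hb : IsFChar F G b)
    (h : IsCharacter G (a - b)) : IsFChar F G (a - b) := by
  have := Fintype.ofFinite G
  obtain ⟨n, hn⟩ := hb.isCharacter.exists_nat_degree
  induction n using Nat.strong_induction_on generalizing a b with
  | _ n ih =>
  by_cases h0 : b = 0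
  · rwa [h0, sub_zero]
  obtain ⟨m, σ, hσ, hb'⟩ := hb.exists_irreducible h0
  set c : G → ℂ := fun g => algebraMap F ℂ (σ.character g) with hc
  have hcF : IsFChar F G c := isFChar_character σ
  have hc1 : c 1 = m := by simp [hc]
  have hm : m ≠ 0 := by
    rintro rfl
    exact not_nontrivial _ (nontrivial_of_isIrreducible hσ)
  have hc0 : c ≠ 0 := fun h => hm (by
    rw [h, Pi.zero_apply] at hc1; exact_mod_cast hc1.symm)
  have hne : classInner a c ≠ 0 := by
    obtain ⟨i, hi⟩ := h.exists_nat_inner hcF.isCharacter
    obtain ⟨j, hj⟩ := hb'.isCharacter.exists_nat_inner hcF.isCharacter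
    obtain ⟨k, hk0, hk⟩ := hcF.isCharacter.exists_pos_inner_self hc0
    have : a = (a - b) + (b - c) + c := by abel
    rw [this, classInner_add_left, classInner_add_left, hi, hj, hk]
    exact_mod_cast (by omega : i + j + k ≠ 0)
  obtain ⟨n', hn'⟩ := hb'.isCharacter.exists_nat_degree
  have hlt : n' < n := by
    rw [Pi.sub_apply, hn, hc1, sub_eq_iff_eq_add] at hn'
    have : n = n' + m := by exact_mod_cast hn'
    omega
  have := ih n' hlt (ha.sub_irreducible σ hσ hne) hb' (by rwa [sub_sub_sub_cancel_right]) hn'
  rwa [sub_sub_sub_cancel_right] at this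

/-- **Brauer's splitting field theorem**, character form. -/
theorem isFChar_of_roots [Finite G]
    (hF : ∀ z : ℂ, z ^ Monoid.exponent G = 1 → z ∈ (algebraMap F ℂ).range) {χ : G → ℂ}
    (hχ : IsCharacter G χ) : IsFChar F G χ := by
  have := Fintype.ofFinite G
  have key : ∀ f ∈ linSpan fun E : Subgroup G => ∃ p : ℕ, p.Prime ∧ IsElementary p E,
      ∃ a b, IsFChar F G a ∧ IsFChar F G b ∧ f = a - b := by
    intro f hf
    induction hf using Submodule.span_induction with
    | mem f hf =>
      obtain ⟨E, lam, -, rfl⟩ := hf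
      refine ⟨_, 0, (isFChar_hom lam fun e => hF _ ?_).ind, isFChar_zero, (sub_zero _).symm⟩
      have : e ^ Monoid.exponent G = 1 := Subtype.ext (Monoid.pow_exponent_eq_one (e : G))
      rw [← Units.val_pow_eq_pow_val, ← map_pow, this, map_one, Units.val_one]
    | zero => exact ⟨0, 0, isFChar_zero, isFChar_zero, (sub_zero _).symm⟩
    | add f g _ _ hf hg =>
      obtain ⟨a, b, ha, hb, rfl⟩ := hf
      obtain ⟨c, d, hc, hd, rfl⟩ := hg
      exact ⟨a + c, b + d, ha.add hc, hb.add hd, by abel⟩
    | smul n f _ hf =>
      obtain ⟨a, b, ha, hb, rfl⟩ := hf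
      obtain ⟨k, rfl | rfl⟩ := n.eq_nat_or_neg
      · exact ⟨k • a, k • b, ha.nsmul k, hb.nsmul k, by simp [smul_sub]⟩
      · exact ⟨k • b, k • a, hb.nsmul k, ha.nsmul k, by simp [smul_sub]; ring⟩
  obtain ⟨a, b, ha, hb, rfl⟩ := key χ (mem_linSpan_elementary hχ.isGen)
  exact ha.of_sub hb hχ

end CL.Char
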